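import Cfsg.Agent.SuzDeg.Big
import Cfsg.Agent.Suzuki.ToriCount
import Cfsg.Agent.Suzuki.Partition
import Cfsg.Agent.Suzuki.LieIso
import Cfsg.Agent.S0157
import Cfsg.Agent.H75.Perm

set_option autoImplicit false
set_option linter.unusedSectionVars false

/-!
The character degrees of the Suzuki groups.
-/

namespace Cfsg.Agent.SuzDeg

open scoped BigOperators
open Cfsg Cfsg.Agent.CharBase Cfsg.Agent.Char Cfsg.Agent.Suz MulAction

theorem ST.of_selfCent {G : Type*} [Group G] {U : Subgroup G} (h : SC.SelfCent U) (hc : IsCyclic U) {w : ℕ}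
    (hn : Nat.card (Subgroup.normalizer (U : Set G)) = w * Nat.card U) (h1 : 1 < Nat.card U) : ST U w where
  comm := by
    intro x hx y hy
    exact congrArg Subtype.val (mul_comm' (⟨x, hx⟩ : U) ⟨y, hy⟩)
  cent := h
  norm := hn
  one_lt := h1

section

variable {F : Type*} [Field F] [Fintype F] [CharP F 2] {m : ℕ} (hm : 1 ≤ m) (hF : Fintype.card F = 2 ^ (2 * m + 1))

include hm hF in
theorem card_fixed_HH {y : Cfsg.Sz F m} (hy : y ∈ HH hF) (hy1 : y ≠ 1) :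
    Nat.card (fixedBy (Cfsg.suzukiOvoid F m) y) = 2 := by
  obtain ⟨μ, rfl⟩ := (mem_HH hF).1 hy
  have hμ : μ ≠ 1 := by
    rintro rfl
    exact hy1 (hS_one hF)
  have e : fixedBy (Cfsg.suzukiOvoid F m) (hS hF μ) = {oinf F m, opt m 0 0} := by
    ext p
    rw [mem_fixedBy, Set.mem_insert_iff, Set.mem_singleton_iff]
    constructor
    · exact fun h => fixed_hS hm hF hμ h
    · rintro (rfl | rfl)
      · exact hS_oinf hF μ
      · rw [hS_opt]; simp
  rw [e, Nat.card_coe_set_eq, Set.ncard_pair (oinf_ne_opt 0 0)]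

omit [Fintype F] [CharP F 2] in
theorem card_fixed_fpf {y : Cfsg.Sz F m} (hy : Fpf y) : Nat.card (fixedBy (Cfsg.suzukiOvoid F m) y) = 0 := by
  have e : fixedBy (Cfsg.suzukiOvoid F m) y = ∅ := by
    ext p
    rw [mem_fixedBy]
    simp only [Set.mem_empty_iff_false, iff_false]
    exact hy p
  rw [e]; simp

include hF in
theorem exists_St : ∃ St : IrrCharacter (Cfsg.Sz F m), ∀ g, (St : Cfsg.Sz F m → ℂ) g =
    (Nat.card (fixedBy (Cfsg.suzukiOvoid F m) g) : ℂ) - 1 := by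
  have h2t := two_transitive (F := F) (m := m) hF
  have htr : MulAction.IsPretransitive (Cfsg.Sz F m) (Cfsg.suzukiOvoid F m) :=
    MulAction.isPretransitive_of_is_two_pretransitive
  have h := (Cfsg.Agent.S0157.result (G := Cfsg.Sz F m) (Cfsg.suzukiOvoid F m) (by
    rw [card_ovoid]
    have : 1 ≤ Fintype.card F ^ 2 := Nat.one_le_pow _ _ Fintype.card_pos
    omega)).2 h2t
  exact ⟨⟨_, h⟩, fun _ => rfl⟩

include hm hF in
theorem concl_Sz : Concl (Cfsg.Sz F m) m (2 ^ (2 * m + 1)) (2 ^ (m + 1)) := by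
  classical
  have : Fintype (IrrCharacter (Cfsg.Sz F m)) := Fintype.ofFinite _
  obtain ⟨q, hq⟩ : ∃ q, q = 2 ^ (2 * m + 1) := ⟨_, rfl⟩
  obtain ⟨r, hr⟩ : ∃ r, r = 2 ^ (m + 1) := ⟨_, rfl⟩
  have hFq : Fintype.card F = q := hF.trans hq.symm
  have hq8 : 8 ≤ q := by rw [← hFq]; exact eight_le hm hF
  have hG : Nat.card (Cfsg.Sz F m) = q ^ 2 * (q - 1) * (q ^ 2 + 1) := by
    rw [card_Sz hm hF, ← hq]; ring
  obtain ⟨St, hSt⟩ := exists_St (m := m) hF
  have hSt1 : dg St = q ^ 2 := by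
    have h1 := dg_spec St
    rw [hSt, fixedBy_one_eq_univ, Nat.card_univ, card_ovoid, hFq] at h1
    have h2 : ((q ^ 2 + 1 : ℕ) : ℂ) - 1 = ((q ^ 2 : ℕ) : ℂ) := by push_cast; ring
    rw [h2] at h1
    exact_mod_cast h1.symm
  have hStne : St ≠ oneIrr (Cfsg.Sz F m) := by
    intro h
    rw [h, dg_one] at hSt1
    nlinarith
  obtain ⟨U, V, hU, hV, cU, cV, nU, nV, -⟩ := exists_tori hm hF
  rw [← hq, ← hr] at cU cV
  have h2r : 2 * r = 4 * 2 ^ m := by rw [hr]; ring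
  have h4 : ∃ t, q = 4 * t := ⟨2 ^ (2 * m - 1), by
    rw [hq, show 2 * m + 1 = 2 * m - 1 + 2 by omega, pow_add]; ring⟩
  have h4r : ∃ t, r = 4 * t := ⟨2 ^ (m - 1), by
    rw [hr, show m + 1 = m - 1 + 2 by omega, pow_add]; ring⟩
  obtain ⟨q', hq'⟩ := h4
  obtain ⟨r', hr'⟩ := h4r
  have hqr : q = r * 2 ^ m := by rw [hq, hr, ← pow_add]; congr 1; omega
  have h2m : 2 ≤ 2 ^ m := by
    calc 2 = 2 ^ 1 := by norm_num
      _ ≤ 2 ^ m := Nat.pow_le_pow_right (by norm_num) hm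
  have hrq : 2 * r ≤ q := by rw [hqr]; nlinarith
  rw [← hq, ← hr]
  have ST0 : ST (HH (m := m) hF) 2 := ST.of_selfCent (selfCent_HH hF hm) (isCyclic_HH hF) (by
    rw [card_normalizer_HH hF hm, card_HH hF]) (by rw [card_HH hF, ← hq]; omega)
  have c0 : Nat.card (HH (m := m) hF) = q - 1 := by rw [card_HH hF, ← hq]
  have ST1 : ST U 4 := ST.of_selfCent (hU.selfCent hm hF) (hU.isCyclic hm hF) nU (by rw [cU]; omega)
  have ST2 : ST V 4 := ST.of_selfCent (hV.selfCent hm hF) (hV.isCyclic hm hF) nV (by rw [cV]; omega)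
  obtain ⟨E0, ε0, ce0, c0', d0, h0⟩ := ST0.exists_TD (n := 2 * q' - 1) hStne (s := 1) (Or.inl rfl) (by
    intro y hy hy1
    rw [hSt, card_fixed_HH hm hF hy hy1]; norm_num) (by omega) (by rw [c0]; omega)
  rw [c0] at h0
  obtain ⟨E1, ε1, ce1, c1, d1, h1⟩ := ST1.exists_TD (n := q' + r') hStne (s := -1) (Or.inr rfl) (by
    intro y hy hy1
    rw [hSt, card_fixed_fpf (hU.fpf hm hF hy hy1)]; norm_num) (by omega) (by rw [cU]; omega)
  rw [cU] at h1
  by_cases hm1 : m = 1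
  · subst hm1
    norm_num at hq hr
    subst hq hr
    obtain rfl : q' = 2 := by omega
    obtain rfl : r' = 1 := by omega
    exact concl_eight (by rw [hG]; norm_num) (by rw [hSt1]; norm_num) hStne h0 h1
  have h16 : 8 ≤ r := by
    rw [hr]
    calc 8 = 2 ^ 3 := by norm_num
      _ ≤ 2 ^ (m + 1) := Nat.pow_le_pow_right (by norm_num) (by omega)
  have h4m : 4 ≤ 2 ^ m := by
    calc 4 = 2 ^ 2 := by norm_num
      _ ≤ 2 ^ m := Nat.pow_le_pow_right (by norm_num) (by omega)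
  have hrq' : 4 * r ≤ q := by rw [hqr]; nlinarith
  obtain ⟨E2, ε2, ce2, c2, d2, h2⟩ := ST2.exists_TD (n := q' - r') hStne (s := -1) (Or.inr rfl) (by
    intro y hy hy1
    rw [hSt, card_fixed_fpf (hV.fpf hm hF hy hy1)]; norm_num) (by omega) (by rw [cV]; omega)
  rw [cV] at h2
  exact concl_big (by omega) hq hr (n0 := 2 * q' - 1) (by omega) (n1 := q' + r') (by omega) (n2 := q' - r') (by omega) rfl (by omega)
    hG hSt1 hStne h0 h1 h2

end

/-- degrees of the characters of isomorphic groups -/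
theorem Concl.congr {G : Type*} [Group G] [Finite G] {H : Type*} [Group H] [Finite H] (e : H ≃* G) {m q r : ℕ} (h : Concl G m q r) :
    Concl H m q r := by
  obtain ⟨h1, ⟨χ1, h2⟩, ⟨χ2, h3⟩, ⟨χ3, h4⟩, ⟨χ4, h5⟩⟩ := h
  have hB : ∀ χ : IrrCharacter G, ∃ ψ : IrrCharacter H, dg ψ = dg χ := by
    intro χ
    refine ⟨⟨(χ : G → ℂ) ∘ e, H75.isIrrCharacter_comp_equiv χ.2 e⟩, ?_⟩
    show charDegree ((χ : G → ℂ) ∘ e) = charDegree (χ : G → ℂ)
    unfold charDegree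
    rw [Function.comp_apply, map_one]
  have hA : ∀ χ : IrrCharacter H, ∃ ψ : IrrCharacter G, dg ψ = dg χ := by
    intro χ
    refine ⟨⟨(χ : H → ℂ) ∘ e.symm, H75.isIrrCharacter_comp_equiv χ.2 e.symm⟩, ?_⟩
    show charDegree ((χ : H → ℂ) ∘ e.symm) = charDegree (χ : H → ℂ)
    unfold charDegree
    rw [Function.comp_apply, map_one]
  refine ⟨?_, ?_, ?_, ?_, ?_⟩
  · intro χ
    obtain ⟨ψ, hψ⟩ := hA χ
    rw [← hψ]
    exact h1 ψ
  · obtain ⟨ψ, hψ⟩ := hB χ1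
    exact ⟨ψ, hψ.trans h2⟩
  · obtain ⟨ψ, hψ⟩ := hB χ2
    exact ⟨ψ, hψ.trans h3⟩
  · obtain ⟨ψ, hψ⟩ := hB χ3
    exact ⟨ψ, hψ.trans h4⟩
  · obtain ⟨ψ, hψ⟩ := hB χ4
    exact ⟨ψ, hψ.trans h5⟩

end Cfsg.Agent.SuzDeg
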