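import Cfsg.Agent.SuzDeg.Deg

set_option autoImplicit false
set_option linter.unusedSectionVars false

/-!
The character degrees of the Suzuki groups over fields with at least 32 elements.
-/

namespace Cfsg.Agent.SuzDeg

open scoped BigOperators
open Cfsg Cfsg.Agent.CharBase Cfsg.Agent.Char

universe u

variable {G : Type u} [Group G] [Finite G] [Fintype (IrrCharacter G)] [DecidableEq (IrrCharacter G)]

theorem TD.ce_eq_zero {St : IrrCharacter G} {N n : ℕ} {s : ℤ} {E : Finset (IrrCharacter G)} {ε ce : ℤ} {c : IrrCharacter G → ℤ}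
    {d : ℕ} (h : TD G St N 4 n s E ε ce c d) (hn : 5 ≤ n) : ce = 0 := by
  have h1 := h.ce_sq_le
  have h2 : (3 : ℤ) ≤ (n : ℤ) - 2 := by omega
  have h3 := sq_nonneg ce
  have h4 : ce ^ 2 * 3 ≤ 2 := by
    push_cast at h1
    nlinarith
  have h5 : ce ^ 2 = 0 := by omega
  exact pow_eq_zero_iff (two_ne_zero) |>.1 h5

/-- `c` vanishes on a large set of characters with the same degree -/
theorem c_zero_of_deg {St : IrrCharacter G} {N n : ℕ} (hN : 6 ≤ N) (hn : 5 ≤ n)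
    {E : Finset (IrrCharacter G)} {ε ce : ℤ} {c : IrrCharacter G → ℤ} {d : ℕ} (h : TD G St N 4 n (-1) E ε ce c d)
    (hc : ∀ χ, χ ≠ oneIrr G → χ ≠ St → χ ∉ E → -1 ≤ c χ ∧ c χ ≤ 1)
    {E' : Finset (IrrCharacter G)} {d' : ℕ} (hd : ∀ χ ∈ E', dg χ = d') (h1 : oneIrr G ∉ E') (hSt : St ∉ E') (hE : ∀ χ ∈ E', χ ∉ E)
    (hcard : 3 ≤ E'.card) : (∀ χ ∈ E', c χ = 0) ∧ N ∣ d' := by
  have hb : ∀ χ ∈ E', -1 ≤ c χ ∧ c χ ≤ 1 := fun χ hχ => hc χ (fun e => h1 (e ▸ hχ)) (fun e => hSt (e ▸ hχ)) (hE χ hχ)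
  have hdv : ∀ χ ∈ E', (N : ℤ) ∣ d' - c χ := fun χ hχ => by
    have := h.dvd χ (hE χ hχ)
    rwa [hd χ hχ] at this
  obtain ⟨χ1, hχ1⟩ := Finset.card_pos.1 (show 0 < E'.card by omega)
  have hsame : ∀ χ ∈ E', c χ = c χ1 := by
    intro χ hχ
    have h3 := dvd_sub (hdv χ1 hχ1) (hdv χ hχ)
    have e : (d' : ℤ) - c χ1 - (d' - c χ) = c χ - c χ1 := by ring
    rw [e] at h3
    obtain ⟨b1, b2⟩ := hb χ hχ
    obtain ⟨b3, b4⟩ := hb χ1 hχ1
    have := dvd_small h3 (by rw [abs_lt]; constructor <;> omega)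
    omega
  have hz : c χ1 = 0 := by
    by_contra hne
    have h3 : ∑ χ ∈ E', (c χ) ^ 2 ≤ ∑ χ ∈ ((Finset.univ.erase (oneIrr G)).erase St) \ E, (c χ) ^ 2 := by
      apply Finset.sum_le_sum_of_subset_of_nonneg
      · intro χ hχ
        simp only [Finset.mem_sdiff, Finset.mem_erase, Finset.mem_univ, and_true]
        exact ⟨⟨fun e => hSt (e ▸ hχ), fun e => h1 (e ▸ hχ)⟩, hE χ hχ⟩
      · intro _ _ _; exact sq_nonneg _
    have h4 : ∑ χ ∈ E', (c χ) ^ 2 = E'.card := by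
      rw [Finset.sum_congr rfl (fun χ hχ => by
        rw [hsame χ hχ]
        obtain ⟨b3, b4⟩ := hb χ1 hχ1
        have : c χ1 = 1 ∨ c χ1 = -1 := by omega
        rcases this with h | h <;> rw [h] <;> norm_num : ∀ χ ∈ E', (c χ) ^ 2 = 1), Finset.sum_const, nsmul_eq_mul, mul_one]
    have h5 := h.sum
    have h6 := h.ce_eq_zero hn
    rw [h6] at h5
    rw [h4] at h3
    push_cast at h5
    have h7 : (3 : ℤ) ≤ E'.card := by exact_mod_cast hcard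
    linarith
  refine ⟨fun χ hχ => by rw [hsame χ hχ, hz], ?_⟩
  have h3 := hdv χ1 hχ1
  rw [hz, sub_zero] at h3
  exact_mod_cast h3

/-- the diophantine equation -/
theorem key_big {q r N1 N2 n1 n2 k1 k2 X : ℤ} (hrr : r ^ 2 = 2 * q) (hr : 8 ≤ r) (hrq : 4 * r ≤ q) (hn1 : 4 * n1 = q + r) (hn2 : 4 * n2 + r = q)
    (hN1 : N1 = q + r + 1) (hN2 : N2 + r = q + 1) (hk1 : 1 ≤ k1) (hk2 : 1 ≤ k2) (hX : 0 ≤ X)
    (h : 2 * (n1 * (N2 * k1) ^ 2 + (n2 * (N1 * k2) ^ 2 + X)) = q * (q ^ 2 - 1)) : k1 = 1 ∧ k2 = 1 ∧ X = q := by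
  have hN2' : N2 = q + 1 - r := by linarith
  have e : 4 * X + (q + r) * N2 ^ 2 * (k1 ^ 2 - 1) + (q - r) * N1 ^ 2 * (k2 ^ 2 - 1) = 4 * q := by
    have e1 : (q + r) * N2 ^ 2 + (q - r) * N1 ^ 2 = 2 * q * (q ^ 2 - 3) := by
      rw [hN1, hN2']
      linear_combination (-2 * q - 4) * hrr
    have h' : 4 * n1 * (N2 * k1) ^ 2 + (4 * n2 * (N1 * k2) ^ 2 + 4 * X) = 2 * q * (q ^ 2 - 1) := by linear_combination 2 * h
    rw [hn1, show 4 * n2 = q - r by linarith] at h'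
    linear_combination h' - e1
  have hq : 32 ≤ q := by linarith
  have p1 : 0 ≤ (q + r) * N2 ^ 2 := by positivity
  have p2 : 0 ≤ (q - r) * N1 ^ 2 := by
    have : 0 ≤ q - r := by linarith
    positivity
  have p3 : 0 ≤ k1 ^ 2 - 1 := by nlinarith
  have p4 : 0 ≤ k2 ^ 2 - 1 := by nlinarith
  have hk1' : k1 = 1 := by
    by_contra hne
    have h2 : 2 ≤ k1 := by omega
    have h3 : 3 ≤ k1 ^ 2 - 1 := by nlinarith
    have h4 : (q + r) * 4 ≤ (q + r) * N2 ^ 2 := by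
      apply mul_le_mul_of_nonneg_left _ (by linarith)
      have : 2 ≤ N2 := by rw [hN2']; linarith
      nlinarith
    have h5 := mul_nonneg p2 p4
    have h6 : (q + r) * 4 * 3 ≤ (q + r) * N2 ^ 2 * (k1 ^ 2 - 1) := mul_le_mul h4 h3 (by norm_num) p1
    linarith
  have hk2' : k2 = 1 := by
    by_contra hne
    have h2 : 2 ≤ k2 := by omega
    have h3 : 3 ≤ k2 ^ 2 - 1 := by nlinarith
    have h4 : (q - r) * 4 ≤ (q - r) * N1 ^ 2 := by
      apply mul_le_mul_of_nonneg_left _ (by linarith)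
      have : 2 ≤ N1 := by rw [hN1]; linarith
      nlinarith
    have h5 := mul_nonneg p1 p3
    have h6 : (q - r) * 4 * 3 ≤ (q - r) * N1 ^ 2 * (k2 ^ 2 - 1) := mul_le_mul h4 h3 (by norm_num) p2
    linarith
  refine ⟨hk1', hk2', ?_⟩
  rw [hk1', hk2'] at e
  linarith

set_option maxHeartbeats 1000000 in
theorem concl_big {m q r n0 n1 n2 N1 N2 : ℕ} (hm : 2 ≤ m) (hq : q = 2 ^ (2 * m + 1)) (hr : r = 2 ^ (m + 1)) (hn0 : 2 * n0 + 2 = q)
    (hn1 : 4 * n1 = q + r) (hn2 : 4 * n2 + r = q) (hN1 : N1 = q + r + 1) (hN2 : N2 + r = q + 1)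
    (hG : Nat.card G = q ^ 2 * (q - 1) * (q ^ 2 + 1)) {St : IrrCharacter G} (hSt1 : dg St = q ^ 2) (hStne : St ≠ oneIrr G)
    {E0 : Finset (IrrCharacter G)} {ε0 ce0 : ℤ} {c0 : IrrCharacter G → ℤ} {d0 : ℕ}
    (h0 : TD G St (q - 1) 2 n0 1 E0 ε0 ce0 c0 d0)
    {E1 : Finset (IrrCharacter G)} {ε1 ce1 : ℤ} {c1 : IrrCharacter G → ℤ} {d1 : ℕ}
    (h1 : TD G St N1 4 n1 (-1) E1 ε1 ce1 c1 d1)
    {E2 : Finset (IrrCharacter G)} {ε2 ce2 : ℤ} {c2 : IrrCharacter G → ℤ} {d2 : ℕ}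
    (h2 : TD G St N2 4 n2 (-1) E2 ε2 ce2 c2 d2) : Concl G m q r := by
  have hr8 : 8 ≤ r := by
    rw [hr]
    calc 8 = 2 ^ 3 := by norm_num
      _ ≤ 2 ^ (m + 1) := Nat.pow_le_pow_right (by norm_num) (by omega)
  have hqr : q = r * 2 ^ m := by rw [hq, hr, ← pow_add]; congr 1; omega
  have hrq : 4 * r ≤ q := by
    have : 2 ^ 2 ≤ 2 ^ m := Nat.pow_le_pow_right (by norm_num) hm
    rw [hqr]; nlinarith
  have hrr : r ^ 2 = 2 * q := by rw [hr, hq, ← pow_mul, ← pow_succ']; congr 1; omega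
  have hq32 : 32 ≤ q := by omega
  have hev : Even q := by rw [hq, pow_succ]; exact even_two.mul_left _
  have hNN : N1 * N2 = q ^ 2 + 1 := by
    have : (N1 : ℤ) * N2 = (q : ℤ) ^ 2 + 1 := by
      have a1 : (N2 : ℤ) = q + 1 - r := by
        have : (N2 : ℤ) + r = q + 1 := by exact_mod_cast hN2
        linarith
      have a2 : (r : ℤ) ^ 2 = 2 * q := by exact_mod_cast hrr
      rw [a1, hN1]; push_cast
      linear_combination -a2
    exact_mod_cast this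
  have hd1' : N1 ∣ q ^ 2 + 1 := ⟨N2, hNN.symm⟩
  have hd2' : N2 ∣ q ^ 2 + 1 := ⟨N1, by rw [← hNN]; ring⟩
  have hcop1 := coprime_pred (by omega) hev hd1'
  have hcop2 := coprime_pred (by omega) hev hd2'
  obtain ⟨hd0, hdiv, hsum⟩ := part_zero (by omega) hn0 hG hSt1 hStne h0
  have hE0 : ∀ χ ∈ E0, dg χ = q ^ 2 + 1 := fun χ hχ => by rw [h0.dE χ hχ, hd0]
  obtain ⟨-, hdis1, hc1, hc10⟩ := part_other (by omega) hd1' hE0 (by omega) h1
  obtain ⟨-, hdis2, hc2, hc20⟩ := part_other (by omega) hd2' hE0 (by omega) h2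
  have z1 := h1.ce_eq_zero (by omega)
  have z2 := h2.ce_eq_zero (by omega)
  -- the exceptional sets are disjoint
  have hE12 : ∀ χ ∈ E1, χ ∉ E2 := by
    intro χ hχ1 hχ2
    have hd12 : d1 = d2 := by rw [← h1.dE χ hχ1, h2.dE χ hχ2]
    have hsub : E1 ⊆ E2 := by
      intro ψ hψ
      by_contra hψ2
      obtain ⟨b1, b2⟩ := hc2 ψ (fun e => h1.one (e ▸ hψ)) (fun e => h1.st (e ▸ hψ)) hψ2
      have b3 := h2.dvd ψ hψ2
      rw [h1.dE ψ hψ, hd12] at b3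
      have b4 := h2.dvdE
      rw [z2] at b4
      have b5 := dvd_sub b3 b4
      have e : (d2 : ℤ) - c2 ψ - (d2 - 0 - ε2 * ((4 : ℕ) : ℤ)) = ε2 * 4 - c2 ψ := by push_cast; ring
      rw [e] at b5
      have b6 := dvd_small b5 (by
        rw [abs_lt]
        rcases h2.eps with h | h <;> rw [h] <;> constructor <;> omega)
      rcases h2.eps with h | h <;> rw [h] at b6 <;> omega
    have := Finset.card_le_card hsub
    rw [h1.card, h2.card] at this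
    omega
  have hE21 : ∀ χ ∈ E2, χ ∉ E1 := fun χ h h' => hE12 χ h' h
  obtain ⟨hz12, hN2d⟩ := c_zero_of_deg (by omega) (by omega) h2 hc2 h1.dE h1.one h1.st hE12 (by rw [h1.card]; omega)
  obtain ⟨hz21, hN1d⟩ := c_zero_of_deg (by omega) (by omega) h1 hc1 h2.dE h2.one h2.st hE21 (by rw [h2.card]; omega)
  obtain ⟨s, hs⟩ : ∃ s : IrrCharacter G → ℕ, ∀ χ, s χ = dg χ / (q - 1) := ⟨_, fun _ => rfl⟩
  obtain ⟨U, hU⟩ : ∃ U, U = (Finset.univ.erase (oneIrr G)).erase St := ⟨_, rfl⟩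
  have hmU : ∀ χ, χ ∈ U ↔ χ ≠ oneIrr G ∧ χ ≠ St := by
    intro χ
    rw [hU]
    simp only [Finset.mem_erase, Finset.mem_univ, and_true]
    exact and_comm
  obtain ⟨W, hW⟩ : ∃ W, W = U \ E0 := ⟨_, rfl⟩
  have hmW : ∀ χ, χ ∈ W ↔ (χ ≠ oneIrr G ∧ χ ≠ St) ∧ χ ∉ E0 := by
    intro χ
    rw [hW, Finset.mem_sdiff, hmU]
  have hsumW : 2 * ∑ χ ∈ W, ((s χ : ℕ) : ℤ) ^ 2 = q * ((q : ℤ) ^ 2 - 1) := by
    rw [hW, hU]
    simp only [hs]
    exact hsum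
  have hdg : ∀ χ ∈ W, dg χ = (q - 1) * s χ := by
    intro χ hχ
    have h3 := (hmW χ).1 hχ
    rw [hs, hdiv χ h3.1.1 h3.1.2 h3.2]
  have hE1W : E1 ⊆ W := by
    intro χ hχ
    rw [hmW]
    exact ⟨⟨fun e => h1.one (e ▸ hχ), fun e => h1.st (e ▸ hχ)⟩, fun h => hdis1 χ h hχ⟩
  have hE2W : E2 ⊆ W \ E1 := by
    intro χ hχ
    rw [Finset.mem_sdiff, hmW]
    exact ⟨⟨⟨fun e => h2.one (e ▸ hχ), fun e => h2.st (e ▸ hχ)⟩, fun h => hdis2 χ h hχ⟩, hE21 χ hχ⟩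
  have hpos : ∀ χ ∈ W, 0 < s χ := by
    intro χ hχ
    have := dg_pos χ
    rw [hdg χ hχ] at this
    exact Nat.pos_of_mul_pos_left this
  obtain ⟨χ1, hχ1⟩ := Finset.card_pos.1 (show 0 < E1.card by rw [h1.card]; omega)
  obtain ⟨χ2, hχ2⟩ := Finset.card_pos.1 (show 0 < E2.card by rw [h2.card]; omega)
  have hs1 : ∀ χ ∈ E1, s χ = s χ1 := by
    intro χ hχ
    rw [hs, hs, h1.dE χ hχ, h1.dE χ1 hχ1]
  have hs2 : ∀ χ ∈ E2, s χ = s χ2 := by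
    intro χ hχ
    rw [hs, hs, h2.dE χ hχ, h2.dE χ2 hχ2]
  have hχ1W := hE1W hχ1
  have hχ2W := (Finset.mem_sdiff.1 (hE2W hχ2)).1
  have hd1 : d1 = (q - 1) * s χ1 := by rw [← h1.dE χ1 hχ1, hdg χ1 hχ1W]
  have hd2 : d2 = (q - 1) * s χ2 := by rw [← h2.dE χ2 hχ2, hdg χ2 hχ2W]
  obtain ⟨k1, hk1⟩ : N2 ∣ s χ1 := by
    rw [hd1] at hN2d
    exact hcop2.dvd_of_dvd_mul_left hN2d
  obtain ⟨k2, hk2⟩ : N1 ∣ s χ2 := by
    rw [hd2] at hN1d
    exact hcop1.dvd_of_dvd_mul_left hN1d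
  have hk1p : 1 ≤ k1 := by
    rcases Nat.eq_zero_or_pos k1 with h | h
    · have := hpos χ1 hχ1W
      rw [hk1, h, mul_zero] at this; omega
    · exact h
  have hk2p : 1 ≤ k2 := by
    rcases Nat.eq_zero_or_pos k2 with h | h
    · have := hpos χ2 hχ2W
      rw [hk2, h, mul_zero] at this; omega
    · exact h
  obtain ⟨A, hA⟩ : ∃ A, A = (W \ E1) \ E2 := ⟨_, rfl⟩
  have hmA : ∀ χ, χ ∈ A ↔ (χ ∈ W ∧ χ ∉ E1) ∧ χ ∉ E2 := by
    intro χ; rw [hA, Finset.mem_sdiff, Finset.mem_sdiff]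
  have hsplit : ∀ f : IrrCharacter G → ℤ, ∑ χ ∈ W, f χ = ∑ χ ∈ E1, f χ + (∑ χ ∈ E2, f χ + ∑ χ ∈ A, f χ) := by
    intro f
    rw [hA, add_comm (∑ χ ∈ E2, f χ), Finset.sum_sdiff hE2W, add_comm, Finset.sum_sdiff hE1W]
  rw [hsplit, Finset.sum_congr rfl (fun χ hχ => by rw [hs1 χ hχ] : ∀ χ ∈ E1, ((s χ : ℕ) : ℤ) ^ 2 = ((s χ1 : ℕ) : ℤ) ^ 2),
    Finset.sum_congr rfl (fun χ hχ => by rw [hs2 χ hχ] : ∀ χ ∈ E2, ((s χ : ℕ) : ℤ) ^ 2 = ((s χ2 : ℕ) : ℤ) ^ 2),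
    Finset.sum_const, Finset.sum_const, h1.card, h2.card, hk1, hk2] at hsumW
  simp only [nsmul_eq_mul] at hsumW
  obtain ⟨e1, e2, e3⟩ := key_big (q := q) (r := r) (N1 := N1) (N2 := N2) (n1 := n1) (n2 := n2) (k1 := k1) (k2 := k2)
    (by exact_mod_cast hrr) (by exact_mod_cast hr8) (by exact_mod_cast hrq) (by exact_mod_cast hn1) (by exact_mod_cast hn2)
    (by exact_mod_cast hN1) (by exact_mod_cast hN2) (by exact_mod_cast hk1p) (by exact_mod_cast hk2p)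
    (Finset.sum_nonneg fun _ _ => sq_nonneg _) (by push_cast at hsumW; exact hsumW)
  have e1 : k1 = 1 := by exact_mod_cast e1
  have e2 : k2 = 1 := by exact_mod_cast e2
  have e3 : ∑ χ ∈ A, (s χ) ^ 2 = q := by exact_mod_cast e3
  rw [e1, mul_one] at hk1
  rw [e2, mul_one] at hk2
  have hcA : ∀ χ ∈ A, c1 χ = 1 ∨ c1 χ = -1 := by
    intro χ hχ
    obtain ⟨⟨k1, k2⟩, k3⟩ := (hmA χ).1 hχ
    obtain ⟨k4, k5⟩ := hc1 χ ((hmW χ).1 k1).1.1 ((hmW χ).1 k1).1.2 k2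
    have k6 : c1 χ ≠ 0 := by
      intro k6
      have k7 := h1.dvd χ k2
      rw [k6, sub_zero, hdg χ k1] at k7
      have k8 : N1 ∣ (q - 1) * s χ := by exact_mod_cast k7
      have k9 := hcop1.dvd_of_dvd_mul_left k8
      have k10 := Nat.le_of_dvd (hpos χ k1) k9
      have k11 : (s χ) ^ 2 ≤ ∑ χ ∈ A, (s χ) ^ 2 :=
        Finset.single_le_sum (f := fun χ => (s χ) ^ 2) (fun _ _ => Nat.zero_le _) hχ
      rw [e3] at k11
      have k12 : q < s χ := by omega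
      nlinarith
    omega
  have hAcard : A.card ≤ 2 := by
    have k1 : ∑ χ ∈ A, (c1 χ) ^ 2 ≤ ∑ χ ∈ ((Finset.univ.erase (oneIrr G)).erase St) \ E1, (c1 χ) ^ 2 := by
      apply Finset.sum_le_sum_of_subset_of_nonneg
      · intro χ hχ
        obtain ⟨⟨k1, k2⟩, k3⟩ := (hmA χ).1 hχ
        rw [← hU, Finset.mem_sdiff, hmU]
        exact ⟨((hmW χ).1 k1).1, k2⟩
      · intro _ _ _; exact sq_nonneg _
    rw [Finset.sum_congr rfl (fun χ hχ => by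
      rcases hcA χ hχ with h | h <;> rw [h] <;> norm_num : ∀ χ ∈ A, (c1 χ) ^ 2 = 1), Finset.sum_const, nsmul_eq_mul, mul_one] at k1
    have k2 := h1.sum
    rw [z1] at k2
    push_cast at k2
    have : (A.card : ℤ) ≤ 2 := by linarith
    exact_mod_cast this
  have hsA : (∃ χ, χ ∈ A) ∧ ∀ χ ∈ A, s χ = 2 ^ m := by
    have : A.card = 0 ∨ A.card = 1 ∨ A.card = 2 := by omega
    rcases this with h | h | h
    · rw [Finset.card_eq_zero.1 h, Finset.sum_empty] at e3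
      omega
    · obtain ⟨a, ha⟩ := Finset.card_eq_one.1 h
      rw [ha, Finset.sum_singleton, hq] at e3
      exact absurd e3 (not_sq m _)
    · obtain ⟨a, b, hab, ha⟩ := Finset.card_eq_two.1 h
      rw [ha, Finset.sum_pair hab, hq] at e3
      obtain ⟨l1, l2⟩ := sum_two_sq m _ _ e3
      refine ⟨⟨a, by rw [ha]; exact Finset.mem_insert_self _ _⟩, ?_⟩
      intro χ hχ
      rw [ha, Finset.mem_insert, Finset.mem_singleton] at hχ
      rcases hχ with rfl | rfl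
      · exact l1
      · exact l2
  obtain ⟨⟨χ3, hχ3⟩, hsA⟩ := hsA
  have hN2' : N2 = q - r + 1 := by omega
  refine ⟨?_, ?_, ?_, ?_, ?_⟩
  · intro χ
    by_cases m1 : χ = oneIrr G
    · left; rw [m1]; exact dg_one
    by_cases m2 : χ = St
    · right; left; rw [m2, hSt1]
    by_cases m3 : χ ∈ E0
    · right; right; left; exact hE0 χ m3
    have m4 : χ ∈ W := (hmW χ).2 ⟨⟨m1, m2⟩, m3⟩
    by_cases m5 : χ ∈ E1
    · right; right; right; left; rw [hdg χ m4, hs1 χ m5, hk1, hN2']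
    by_cases m6 : χ ∈ E2
    · right; right; right; right; left; rw [hdg χ m4, hs2 χ m6, hk2, hN1]
    · right; right; right; right; right
      rw [hdg χ m4, hsA χ ((hmA χ).2 ⟨⟨m4, m5⟩, m6⟩)]
  · obtain ⟨χ, hχ⟩ := Finset.card_pos.1 (show 0 < E0.card by rw [h0.card]; omega)
    exact ⟨χ, hE0 χ hχ⟩
  · exact ⟨χ1, by rw [hdg χ1 hχ1W, hk1, hN2']⟩
  · exact ⟨χ2, by rw [hdg χ2 hχ2W, hk2, hN1]⟩
  · exact ⟨χ3, by rw [hdg χ3 ((hmA χ3).1 hχ3).1.1, hsA χ3 hχ3]⟩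

end Cfsg.Agent.SuzDeg
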