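import Cfsg.Agent.SuzDeg.Tor

set_option autoImplicit false
set_option linter.unusedSectionVars false

/-!
The character degrees of the Suzuki groups from the three classes of tori and the Steinberg character.
-/

namespace Cfsg.Agent.SuzDeg

open scoped BigOperators
open Cfsg Cfsg.Agent.CharBase Cfsg.Agent.Char

universe u

/-- the data of one torus -/
structure TD (G : Type u) [Group G] [Fintype (IrrCharacter G)] [DecidableEq (IrrCharacter G)]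
    (St : IrrCharacter G) (N w n : ℕ) (s : ℤ) (E : Finset (IrrCharacter G)) (ε ce : ℤ) (c : IrrCharacter G → ℤ) (d : ℕ) : Prop where
  eps : ε = 1 ∨ ε = -1
  card : E.card = n
  one : oneIrr G ∉ E
  st : St ∉ E
  cone : c (oneIrr G) = 1
  cst : c St = s
  dE : ∀ χ ∈ E, dg χ = d
  cE : ∀ χ ∈ E, c χ = ce
  dvdE : (N : ℤ) ∣ d - ce - ε * w
  dvd : ∀ χ ∉ E, (N : ℤ) ∣ dg χ - c χ
  sum : ∑ χ ∈ ((Finset.univ.erase (oneIrr G)).erase St) \ E, (c χ) ^ 2 + n * ce ^ 2 - 2 * ε * ce = w - 2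
  lin : ∑ χ, c χ * dg χ = ε * d

variable {G : Type u} [Group G] [Finite G] [Fintype (IrrCharacter G)] [DecidableEq (IrrCharacter G)]

theorem ST.exists_TD {T : Subgroup G} {w : ℕ} (hT : ST T w) {St : IrrCharacter G} (hSt : St ≠ oneIrr G) {s : ℤ}
    (hs : s = 1 ∨ s = -1) (hst : ∀ y ∈ T, y ≠ 1 → (St : G → ℂ) y = s) {n : ℕ} (hn : 3 ≤ n) (hnw : n * w + 1 = Nat.card T) :
    ∃ (E : Finset (IrrCharacter G)) (ε ce : ℤ) (c : IrrCharacter G → ℤ) (d : ℕ), TD G St (Nat.card T) w n s E ε ce c d := by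
  obtain ⟨E, ε, ce, c, d, hε, h1, h2, h3, h4, h5, h6, h7, h8, h9⟩ := hT.main
  have hT1 := hT.one_lt
  obtain ⟨y, hy, hy1⟩ : ∃ y ∈ T, y ≠ 1 := by
    have : Nontrivial T := Finite.one_lt_card_iff_nontrivial.1 hT1
    obtain ⟨y, hy⟩ := exists_ne (1 : T)
    exact ⟨y.1, y.2, fun h => hy (Subtype.ext h)⟩
  have hw : (w : ℤ) ≠ 0 := by
    rintro h
    rw [h, mul_zero] at h5
    omega
  have hcard : E.card = n := by
    have h10 : (E.card : ℤ) * w = n * w := by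
      rw [h5, ← hnw]; push_cast; ring
    exact_mod_cast mul_right_cancel₀ hw h10
  have hone := h7 (by omega)
  have hstE : St ∉ E := by
    intro h
    have := h9 St h s hst
    omega
  have hc1 : c (oneIrr G) = 1 := by
    have := h1 _ hone y hy hy1
    rw [oneIrr_apply] at this
    exact_mod_cast this.symm
  have hcs : c St = s := by
    have := h1 _ hstE y hy hy1
    rw [hst y hy hy1] at this
    exact_mod_cast this.symm
  refine ⟨E, ε, ce, c, d, hε, hcard, hone, hstE, hc1, hcs, fun χ hχ => (h2 χ hχ).2, fun χ hχ => (h2 χ hχ).1, ?_, h3, ?_, h8⟩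
  · obtain ⟨χ, hχ⟩ := Finset.card_pos.1 (show 0 < E.card by omega)
    have := h4 χ hχ
    rwa [(h2 χ hχ).2] at this
  · have hfil : Finset.univ.filter (fun χ : IrrCharacter G => χ ∉ E) =
        insert (oneIrr G) (insert St (((Finset.univ.erase (oneIrr G)).erase St) \ E)) := by
      ext χ
      simp only [Finset.mem_filter, Finset.mem_univ, true_and, Finset.mem_insert, Finset.mem_sdiff, Finset.mem_erase, and_true]
      constructor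
      · intro h
        by_cases h' : χ = oneIrr G
        · exact Or.inl h'
        · by_cases h'' : χ = St
          · exact Or.inr (Or.inl h'')
          · exact Or.inr (Or.inr ⟨⟨h'', h'⟩, h⟩)
      · rintro (rfl | rfl | h)
        · exact hone
        · exact hstE
        · exact h.2
    rw [hfil, Finset.sum_insert (by
      simp only [Finset.mem_insert, Finset.mem_sdiff, Finset.mem_erase, not_or]
      exact ⟨Ne.symm hSt, fun h => h.1.2.1 rfl⟩), Finset.sum_insert (by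
      simp only [Finset.mem_sdiff, Finset.mem_erase]
      exact fun h => h.1.1 rfl), hc1, hcs, hcard] at h6
    have hss : s ^ 2 = 1 := by rcases hs with h | h <;> rw [h] <;> norm_num
    rw [hss] at h6
    linear_combination h6

namespace TD

variable {St : IrrCharacter G} {N w n : ℕ} {s : ℤ} {E : Finset (IrrCharacter G)} {ε ce : ℤ} {c : IrrCharacter G → ℤ} {d : ℕ}
  (h : TD G St N w n s E ε ce c d)
include h

theorem bound : ∑ χ ∈ ((Finset.univ.erase (oneIrr G)).erase St) \ E, (c χ) ^ 2 + ((n : ℤ) - 2) * ce ^ 2 ≤ w - 2 := by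
  have h1 := h.sum
  have h2 : 2 * ε * ce ≤ 2 * ce ^ 2 := by
    rcases h.eps with h | h <;> rw [h]
    · have : 0 ≤ ce * (ce - 1) := by
        rcases le_or_gt ce 0 with h' | h' <;> nlinarith
      nlinarith
    · have : 0 ≤ ce * (ce + 1) := by
        rcases le_or_gt ce (-1) with h' | h' <;> nlinarith
      nlinarith
  nlinarith

theorem sum_nonneg : 0 ≤ ∑ χ ∈ ((Finset.univ.erase (oneIrr G)).erase St) \ E, (c χ) ^ 2 :=
  Finset.sum_nonneg fun _ _ => sq_nonneg _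

theorem c_sq_le (hn : 2 ≤ n) {χ : IrrCharacter G} (h1 : χ ≠ oneIrr G) (h2 : χ ≠ St) (h3 : χ ∉ E) : (c χ) ^ 2 ≤ (w : ℤ) - 2 := by
  have h4 := h.bound
  have h5 : (c χ) ^ 2 ≤ ∑ χ ∈ ((Finset.univ.erase (oneIrr G)).erase St) \ E, (c χ) ^ 2 :=
    Finset.single_le_sum (f := fun χ => (c χ) ^ 2) (fun _ _ => sq_nonneg _) (by
      simp only [Finset.mem_sdiff, Finset.mem_erase, Finset.mem_univ, and_true]
      exact ⟨⟨h2, h1⟩, h3⟩)
  have h6 : (0 : ℤ) ≤ ((n : ℤ) - 2) * ce ^ 2 := mul_nonneg (by omega) (sq_nonneg _)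
  linarith

theorem ce_sq_le : ce ^ 2 * ((n : ℤ) - 2) ≤ (w : ℤ) - 2 := by
  have h4 := h.bound
  have h5 := h.sum_nonneg
  linarith

end TD

theorem abs_le_one {x : ℤ} (h : x ^ 2 ≤ 2) : -1 ≤ x ∧ x ≤ 1 := by
  constructor <;> nlinarith

/-- a power of two with odd exponent as a sum of two squares -/
theorem sum_two_sq (m : ℕ) : ∀ a b : ℕ, a ^ 2 + b ^ 2 = 2 ^ (2 * m + 1) → a = 2 ^ m ∧ b = 2 ^ m := by
  induction m with
  | zero =>
    intro a b h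
    norm_num at h
    have ha : a ≤ 1 := by nlinarith
    have hb : b ≤ 1 := by nlinarith
    interval_cases a <;> interval_cases b <;> simp_all
  | succ m ih =>
    intro a b h
    have h4 : 4 ∣ a ^ 2 + b ^ 2 := by
      rw [h]
      exact ⟨2 ^ (2 * m + 1), by ring⟩
    have hab : 2 ∣ a ∧ 2 ∣ b := by
      have ha : a % 4 = 0 ∨ a % 4 = 1 ∨ a % 4 = 2 ∨ a % 4 = 3 := by omega
      have hb : b % 4 = 0 ∨ b % 4 = 1 ∨ b % 4 = 2 ∨ b % 4 = 3 := by omega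
      have h5 : (a ^ 2 + b ^ 2) % 4 = 0 := Nat.mod_eq_zero_of_dvd h4
      rcases ha with ha | ha | ha | ha <;> rcases hb with hb | hb | hb | hb <;>
        simp [Nat.pow_mod, Nat.add_mod, ha, hb] at h5 <;> omega
    obtain ⟨⟨a', rfl⟩, ⟨b', rfl⟩⟩ := hab
    have h5 := ih a' b' (by
      have h6 : 2 ^ (2 * (m + 1) + 1) = 4 * 2 ^ (2 * m + 1) := by ring
      rw [h6] at h
      nlinarith)
    rw [h5.1, h5.2]
    constructor <;> ring

theorem not_sq (m a : ℕ) : a ^ 2 ≠ 2 ^ (2 * m + 1) := by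
  intro h
  have := (sum_two_sq m a 0 (by rw [h]; ring)).2
  have h2 : 0 < 2 ^ m := by positivity
  omega


/-- the common part: the torus of order `q - 1` -/
theorem part_zero {q n0 : ℕ} (hq : 8 ≤ q) (hn0 : 2 * n0 + 2 = q) (hG : Nat.card G = q ^ 2 * (q - 1) * (q ^ 2 + 1)) {St : IrrCharacter G}
    (hSt1 : dg St = q ^ 2) (hStne : St ≠ oneIrr G) {E : Finset (IrrCharacter G)} {ε ce : ℤ} {c : IrrCharacter G → ℤ} {d : ℕ}
    (h : TD G St (q - 1) 2 n0 1 E ε ce c d) :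
    d = q ^ 2 + 1 ∧ (∀ χ, χ ≠ oneIrr G → χ ≠ St → χ ∉ E → (q - 1) * (dg χ / (q - 1)) = dg χ) ∧
      2 * ∑ χ ∈ ((Finset.univ.erase (oneIrr G)).erase St) \ E, ((dg χ / (q - 1) : ℕ) : ℤ) ^ 2 = q * ((q : ℤ) ^ 2 - 1) := by
  have hce : ce = 0 := by
    have h1 := h.ce_sq_le
    have h2 : (1 : ℤ) ≤ (n0 : ℤ) - 2 := by omega
    have h3 : ce ^ 2 = 0 := by
      have := sq_nonneg ce
      push_cast at h1
      nlinarith
    exact pow_eq_zero_iff (two_ne_zero) |>.1 h3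
  have hc0 : ∀ χ, χ ≠ oneIrr G → χ ≠ St → c χ = 0 := by
    intro χ h1 h2
    by_cases h3 : χ ∈ E
    · rw [h.cE χ h3, hce]
    · have h4 := h.c_sq_le (by omega) h1 h2 h3
      have h5 : (c χ) ^ 2 = 0 := le_antisymm (by simpa using h4) (sq_nonneg _)
      exact pow_eq_zero_iff (two_ne_zero) |>.1 h5
  have hsplit : ∀ f : IrrCharacter G → ℤ, ∑ χ, f χ = f (oneIrr G) + (f St + ∑ χ ∈ (Finset.univ.erase (oneIrr G)).erase St, f χ) := by
    intro f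
    rw [Finset.add_sum_erase _ f (Finset.mem_erase.2 ⟨hStne, Finset.mem_univ _⟩), Finset.add_sum_erase _ f (Finset.mem_univ _)]
  have hlin := h.lin
  rw [hsplit, h.cone, h.cst, dg_one, hSt1, Finset.sum_eq_zero (by
    intro χ hχ
    simp only [Finset.mem_erase, Finset.mem_univ, and_true] at hχ
    rw [hc0 χ hχ.2 hχ.1, zero_mul])] at hlin
  have hd : d = q ^ 2 + 1 := by
    rcases h.eps with h1 | h1
    · rw [h1] at hlin
      have : (d : ℤ) = (q : ℤ) ^ 2 + 1 := by push_cast at hlin; linarith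
      exact_mod_cast this
    · exfalso
      rw [h1] at hlin
      push_cast at hlin
      have : (0 : ℤ) ≤ d := by positivity
      nlinarith [sq_nonneg (q : ℤ)]
  have hdiv : ∀ χ, χ ≠ oneIrr G → χ ≠ St → χ ∉ E → (q - 1) * (dg χ / (q - 1)) = dg χ := by
    intro χ h1 h2 h3
    apply Nat.mul_div_cancel'
    have h4 := h.dvd χ h3
    rw [hc0 χ h1 h2, sub_zero] at h4
    exact_mod_cast h4
  refine ⟨hd, hdiv, ?_⟩
  have hsq := sum_dg_sq (G := G)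
  rw [hsplit, dg_one, hSt1, hG] at hsq
  have hEU : E ⊆ (Finset.univ.erase (oneIrr G)).erase St := by
    intro χ hχ
    simp only [Finset.mem_erase, Finset.mem_univ, and_true]
    exact ⟨fun e => h.st (e ▸ hχ), fun e => h.one (e ▸ hχ)⟩
  rw [← Finset.sum_sdiff hEU] at hsq
  have hE : ∑ χ ∈ E, (dg χ : ℤ) ^ 2 = n0 * ((q : ℤ) ^ 2 + 1) ^ 2 := by
    rw [Finset.sum_congr rfl (fun χ hχ => by rw [h.dE χ hχ, hd]), Finset.sum_const, h.card, nsmul_eq_mul]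
    push_cast
    ring
  have hW : ∑ χ ∈ ((Finset.univ.erase (oneIrr G)).erase St) \ E, (dg χ : ℤ) ^ 2 =
      ((q : ℤ) - 1) ^ 2 * ∑ χ ∈ ((Finset.univ.erase (oneIrr G)).erase St) \ E, ((dg χ / (q - 1) : ℕ) : ℤ) ^ 2 := by
    rw [Finset.mul_sum]
    refine Finset.sum_congr rfl fun χ hχ => ?_
    simp only [Finset.mem_sdiff, Finset.mem_erase, Finset.mem_univ, and_true] at hχ
    have h5 := hdiv χ hχ.1.2 hχ.1.1 hχ.2
    have h6 : (dg χ : ℤ) = ((q : ℤ) - 1) * ((dg χ / (q - 1) : ℕ) : ℤ) := by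
      have h7 : (((q - 1 : ℕ) : ℤ)) = (q : ℤ) - 1 := by
        rw [Nat.cast_sub (by omega), Nat.cast_one]
      rw [← h7]
      exact_mod_cast h5.symm
    conv_lhs => rw [h6]
    ring
  rw [hE, hW] at hsq
  have hq1 : ((q : ℤ) - 1) ^ 2 ≠ 0 := by
    have : (q : ℤ) - 1 ≠ 0 := by omega
    exact pow_ne_zero _ this
  apply mul_left_cancel₀ hq1
  have hn0' : 2 * (n0 : ℤ) = q - 2 := by omega
  have h7 : (((q ^ 2 * (q - 1) * (q ^ 2 + 1) : ℕ) : ℤ)) = (q : ℤ) ^ 2 * (q - 1) * (q ^ 2 + 1) := by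
    rw [Nat.cast_mul, Nat.cast_mul, Nat.cast_sub (by omega)]
    push_cast
    ring
  rw [h7] at hsq
  generalize ∑ χ ∈ ((Finset.univ.erase (oneIrr G)).erase St) \ E, ((dg χ / (q - 1) : ℕ) : ℤ) ^ 2 = X at hsq ⊢
  push_cast at hsq
  linear_combination 2 * hsq - ((q : ℤ) ^ 2 + 1) ^ 2 * hn0'


theorem coprime_pred {q N : ℕ} (hq : 8 ≤ q) (hev : Even q) (hN : N ∣ q ^ 2 + 1) : Nat.Coprime N (q - 1) := by
  apply Nat.Coprime.coprime_dvd_left hN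
  obtain ⟨k, hk⟩ := hev
  have h1 : Nat.Coprime 2 (q - 1) := by
    rw [Nat.coprime_two_left]
    exact ⟨k - 1, by omega⟩
  have h2 : q ^ 2 + 1 = (q - 1) * (q + 1) + 2 := by
    obtain ⟨t, rfl⟩ : ∃ t, q = t + 1 := ⟨q - 1, by omega⟩
    rw [Nat.add_sub_cancel]; ring
  rw [h2, Nat.coprime_mul_left_add_left]
  exact h1

theorem dvd_small {N : ℕ} {x : ℤ} (h : (N : ℤ) ∣ x) (h1 : |x| < N) : x = 0 := Int.eq_zero_of_abs_lt_dvd h h1

/-- relations between the exceptional set for `q - 1` and another torus -/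
theorem part_other {q N n : ℕ} (hN : 6 ≤ N) (hNd : N ∣ q ^ 2 + 1) {St : IrrCharacter G}
    {E0 : Finset (IrrCharacter G)} (hE0 : ∀ χ ∈ E0, dg χ = q ^ 2 + 1)
    {E : Finset (IrrCharacter G)} {ε ce : ℤ} {c : IrrCharacter G → ℤ} {d : ℕ} (hn : 3 ≤ n)
    (h : TD G St N 4 n (-1) E ε ce c d) :
    (-1 ≤ ce ∧ ce ≤ 1) ∧ (∀ χ ∈ E0, χ ∉ E) ∧ (∀ χ, χ ≠ oneIrr G → χ ≠ St → χ ∉ E → -1 ≤ c χ ∧ c χ ≤ 1) ∧
      (∀ χ ∈ E0, χ ≠ oneIrr G → χ ≠ St → c χ = 0) := by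
  have hN' : (N : ℤ) ∣ (q : ℤ) ^ 2 + 1 := by exact_mod_cast hNd
  have hce : -1 ≤ ce ∧ ce ≤ 1 := by
    apply abs_le_one
    have h1 := h.ce_sq_le
    have h2 : (1 : ℤ) ≤ (n : ℤ) - 2 := by omega
    have h3 := sq_nonneg ce
    push_cast at h1
    nlinarith
  have hdis : ∀ χ ∈ E0, χ ∉ E := by
    intro χ h1 h2
    have h3 := h.dvdE
    rw [← h.dE χ h2, hE0 χ h1] at h3
    have h4 : (N : ℤ) ∣ ce + ε * 4 := by
      have h5 := dvd_sub hN' h3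
      have e : (q : ℤ) ^ 2 + 1 - (((q ^ 2 + 1 : ℕ) : ℤ) - ce - ε * ((4 : ℕ) : ℤ)) = ce + ε * 4 := by push_cast; ring
      rwa [e] at h5
    have h6 : |ce + ε * 4| < N := by
      rw [abs_lt]
      rcases h.eps with h | h <;> rw [h] <;> constructor <;> omega
    have h7 := dvd_small h4 h6
    rcases h.eps with h | h <;> rw [h] at h7 <;> omega
  have hc : ∀ χ, χ ≠ oneIrr G → χ ≠ St → χ ∉ E → -1 ≤ c χ ∧ c χ ≤ 1 := by
    intro χ h1 h2 h3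
    apply abs_le_one
    have := h.c_sq_le (by omega) h1 h2 h3
    simpa using this
  refine ⟨hce, hdis, hc, ?_⟩
  intro χ h1 h2 h3
  have h4 := hdis χ h1
  obtain ⟨h5, h6⟩ := hc χ h2 h3 h4
  have h7 := h.dvd χ h4
  rw [hE0 χ h1] at h7
  have h8 : (N : ℤ) ∣ c χ := by
    have h9 := dvd_sub hN' h7
    have e : (q : ℤ) ^ 2 + 1 - (((q ^ 2 + 1 : ℕ) : ℤ) - c χ) = c χ := by push_cast; ring
    rwa [e] at h9
  exact dvd_small h8 (by rw [abs_lt]; constructor <;> omega)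

/-- the conclusion -/
def Concl (G : Type u) [Group G] (m q r : ℕ) : Prop :=
  (∀ χ : IrrCharacter G, dg χ = 1 ∨ dg χ = q ^ 2 ∨ dg χ = q ^ 2 + 1 ∨ dg χ = (q - 1) * (q - r + 1) ∨ dg χ = (q - 1) * (q + r + 1) ∨
    dg χ = (q - 1) * 2 ^ m) ∧ (∃ χ : IrrCharacter G, dg χ = q ^ 2 + 1) ∧ (∃ χ : IrrCharacter G, dg χ = (q - 1) * (q - r + 1)) ∧
    (∃ χ : IrrCharacter G, dg χ = (q - 1) * (q + r + 1)) ∧ (∃ χ : IrrCharacter G, dg χ = (q - 1) * 2 ^ m)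

theorem div_eight {x : ℕ} (h1 : x ≤ 15) (h2 : 0 < x) (h3 : 7 * x ∣ 29120) :
    x = 1 ∨ x = 2 ∨ x = 4 ∨ x = 5 ∨ x = 8 ∨ x = 10 ∨ x = 13 := by
  obtain ⟨k, hk⟩ := h3
  interval_cases x <;> omega

theorem key_eight {ε ce : ℤ} {x a b : ℕ} (hε : ε = 1 ∨ ε = -1) (hce : -1 ≤ ce ∧ ce ≤ 1)
    (h1 : x ≤ 15) (h2 : 0 < x) (h3 : 7 * x ∣ 29120) (h4 : (13 : ℤ) ∣ ((7 * x : ℕ) : ℤ) - ce - ε * 4)
    (h5 : (a : ℤ) + 3 * ce ^ 2 - 2 * ε * ce = 2) (h6 : 3 * (x : ℤ) ^ 2 + (4 * a + 169 * b) = 252) : x = 5 ∧ a = 2 ∧ b = 1 := by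
  have h7 := div_eight h1 h2 h3
  obtain ⟨l1, l2⟩ := hce
  have hce' : ce = -1 ∨ ce = 0 ∨ ce = 1 := by omega
  clear h3 l1 l2
  rcases hε with rfl | rfl <;> rcases hce' with rfl | rfl | rfl <;> rcases h7 with rfl | rfl | rfl | rfl | rfl | rfl | rfl <;> omega

theorem keyA_eight {y : ℤ} {x : ℕ} (hy : y = 1 ∨ y = -1) (h1 : x ≤ 15) (h2 : 0 < x) (h3 : 7 * x ∣ 29120)
    (h4 : (13 : ℤ) ∣ ((7 * x : ℕ) : ℤ) - y) : x = 2 := by
  have h7 := div_eight h1 h2 h3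
  clear h3
  rcases hy with rfl | rfl <;> rcases h7 with rfl | rfl | rfl | rfl | rfl | rfl | rfl <;> omega

set_option maxHeartbeats 1000000 in
theorem concl_eight (hG : Nat.card G = 29120) {St : IrrCharacter G}
    (hSt1 : dg St = 64) (hStne : St ≠ oneIrr G) {E0 : Finset (IrrCharacter G)} {ε0 ce0 : ℤ} {c0 : IrrCharacter G → ℤ} {d0 : ℕ}
    (h0 : TD G St 7 2 3 1 E0 ε0 ce0 c0 d0)
    {E1 : Finset (IrrCharacter G)} {ε1 ce1 : ℤ} {c1 : IrrCharacter G → ℤ} {d1 : ℕ}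
    (h1 : TD G St 13 4 3 (-1) E1 ε1 ce1 c1 d1) : Concl G 1 8 4 := by
  obtain ⟨hd0, hdiv, hsum⟩ := part_zero (q := 8) (n0 := 3) (by norm_num) (by norm_num) (by rw [hG]; norm_num) hSt1 hStne h0
  obtain ⟨hce, hdis, hc, hc0⟩ := part_other (q := 8) (N := 13) (by norm_num) (by norm_num) (fun χ hχ => by rw [h0.dE χ hχ, hd0]) (by norm_num) h1
  have hd0 : d0 = 65 := hd0
  have hdiv : ∀ χ, χ ≠ oneIrr G → χ ≠ St → χ ∉ E0 → 7 * (dg χ / 7) = dg χ := hdiv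
  obtain ⟨s, hs⟩ : ∃ s : IrrCharacter G → ℕ, ∀ χ, s χ = dg χ / 7 := ⟨_, fun _ => rfl⟩
  obtain ⟨U, hU⟩ : ∃ U, U = (Finset.univ.erase (oneIrr G)).erase St := ⟨_, rfl⟩
  have hmU : ∀ χ, χ ∈ U ↔ χ ≠ oneIrr G ∧ χ ≠ St := by
    intro χ
    rw [hU]
    simp only [Finset.mem_erase, Finset.mem_univ, and_true]
    exact and_comm
  obtain ⟨W, hW⟩ : ∃ W, W = U \ E0 := ⟨_, rfl⟩
  have hmW : ∀ χ, χ ∈ W ↔ (χ ≠ oneIrr G ∧ χ ≠ St) ∧ χ ∉ E0 := by
    intro χ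
    rw [hW, Finset.mem_sdiff, hmU]
  have hsumW : ∑ χ ∈ W, ((s χ : ℕ) : ℤ) ^ 2 = 252 := by
    rw [hW, hU]
    simp only [hs]
    have : (2 : ℤ) * ∑ χ ∈ ((Finset.univ.erase (oneIrr G)).erase St) \ E0, ((dg χ / 7 : ℕ) : ℤ) ^ 2 = 2 * 252 := by
      refine Eq.trans hsum ?_
      norm_num
    exact mul_left_cancel₀ (by norm_num) this
  have hdg : ∀ χ ∈ W, dg χ = 7 * s χ := by
    intro χ hχ
    have h3 := (hmW χ).1 hχ
    rw [hs, hdiv χ h3.1.1 h3.1.2 h3.2]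
  have hE1W : E1 ⊆ W := by
    intro χ hχ
    rw [hmW]
    exact ⟨⟨fun e => h1.one (e ▸ hχ), fun e => h1.st (e ▸ hχ)⟩, fun h => hdis χ h hχ⟩
  have hpos : ∀ χ ∈ W, 0 < s χ := by
    intro χ hχ
    have := dg_pos χ
    rw [hdg χ hχ] at this
    omega
  have hle : ∀ χ ∈ W, s χ ≤ 15 := by
    intro χ hχ
    have h3 : ((s χ : ℕ) : ℤ) ^ 2 ≤ ∑ χ ∈ W, ((s χ : ℕ) : ℤ) ^ 2 :=
      Finset.single_le_sum (f := fun χ => ((s χ : ℕ) : ℤ) ^ 2) (fun _ _ => sq_nonneg _) hχ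
    rw [hsumW] at h3
    have h4 : (s χ) ^ 2 ≤ 252 := by exact_mod_cast h3
    nlinarith
  have hdd : ∀ χ ∈ W, 7 * s χ ∣ 29120 := by
    intro χ hχ
    rw [← hdg χ hχ, ← hG]
    exact dg_dvd χ
  obtain ⟨χ1, hχ1⟩ := Finset.card_pos.1 (show 0 < E1.card by rw [h1.card]; norm_num)
  have hs1 : ∀ χ ∈ E1, s χ = s χ1 := by
    intro χ hχ
    rw [hs, hs, h1.dE χ hχ, h1.dE χ1 hχ1]
  have hd1 : d1 = 7 * s χ1 := by rw [← h1.dE χ1 hχ1, hdg χ1 (hE1W hχ1)]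
  have hsplit : ∀ f : IrrCharacter G → ℤ, ∑ χ ∈ W, f χ = ∑ χ ∈ E1, f χ + (∑ χ ∈ (W \ E1).filter (fun χ => c1 χ ≠ 0), f χ +
      ∑ χ ∈ (W \ E1).filter (fun χ => ¬ c1 χ ≠ 0), f χ) := by
    intro f
    rw [Finset.sum_filter_add_sum_filter_not, add_comm, Finset.sum_sdiff hE1W]
  obtain ⟨A, hA⟩ : ∃ A, A = (W \ E1).filter (fun χ => c1 χ ≠ 0) := ⟨_, rfl⟩
  obtain ⟨B, hB⟩ : ∃ B, B = (W \ E1).filter (fun χ => ¬ c1 χ ≠ 0) := ⟨_, rfl⟩
  rw [← hA, ← hB] at hsplit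
  have hmA : ∀ χ ∈ A, χ ∈ W ∧ χ ∉ E1 ∧ c1 χ ≠ 0 := by
    intro χ hχ
    rw [hA, Finset.mem_filter, Finset.mem_sdiff] at hχ
    exact ⟨hχ.1.1, hχ.1.2, hχ.2⟩
  have hmB : ∀ χ ∈ B, χ ∈ W ∧ χ ∉ E1 ∧ c1 χ = 0 := by
    intro χ hχ
    rw [hB, Finset.mem_filter, Finset.mem_sdiff] at hχ
    exact ⟨hχ.1.1, hχ.1.2, not_not.1 hχ.2⟩
  have hcA : ∀ χ ∈ A, c1 χ = 1 ∨ c1 χ = -1 := by
    intro χ hχ
    obtain ⟨k1, k2, k3⟩ := hmA χ hχ
    obtain ⟨k4, k5⟩ := hc χ ((hmW χ).1 k1).1.1 ((hmW χ).1 k1).1.2 k2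
    omega
  have hsA : ∀ χ ∈ A, s χ = 2 := by
    intro χ hχ
    obtain ⟨k1, k2, k3⟩ := hmA χ hχ
    have k4 := h1.dvd χ k2
    rw [hdg χ k1] at k4
    have k5 := hle χ k1
    have k6 := hpos χ k1
    have k7 := hdd χ k1
    have k8 := hcA χ hχ
    exact keyA_eight k8 k5 k6 k7 k4
  have hsB : ∀ χ ∈ B, s χ = 13 := by
    intro χ hχ
    obtain ⟨k1, k2, k3⟩ := hmB χ hχ
    have k4 := h1.dvd χ k2
    rw [hdg χ k1, k3] at k4
    have k5 := hle χ k1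
    have k6 := hpos χ k1
    omega
  -- sums
  have hsumc : ∑ χ ∈ U \ E1, (c1 χ) ^ 2 = A.card := by
    have k1 : ∑ χ ∈ U \ E1, (c1 χ) ^ 2 = ∑ χ ∈ A, (c1 χ) ^ 2 := by
      symm
      apply Finset.sum_subset
      · intro χ hχ
        obtain ⟨k1, k2, k3⟩ := hmA χ hχ
        rw [Finset.mem_sdiff, hmU]
        exact ⟨((hmW χ).1 k1).1, k2⟩
      · intro χ hχ hχA
        rw [Finset.mem_sdiff, hmU] at hχ
        by_cases k : χ ∈ E0
        · rw [hc0 χ k hχ.1.1 hχ.1.2]; norm_num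
        · have k2 : c1 χ = 0 := by
            by_contra k3
            apply hχA
            rw [hA, Finset.mem_filter, Finset.mem_sdiff, hmW]
            exact ⟨⟨⟨hχ.1, k⟩, hχ.2⟩, k3⟩
          rw [k2]; norm_num
    rw [k1, Finset.sum_congr rfl (fun χ hχ => by
      rcases hcA χ hχ with h | h <;> rw [h] <;> norm_num : ∀ χ ∈ A, (c1 χ) ^ 2 = 1), Finset.sum_const, nsmul_eq_mul, mul_one]
  have hsum1 := h1.sum
  rw [← hU, hsumc] at hsum1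
  have hsumW' := hsumW
  rw [hsplit, Finset.sum_congr rfl (fun χ hχ => by rw [hs1 χ hχ] : ∀ χ ∈ E1, ((s χ : ℕ) : ℤ) ^ 2 = ((s χ1 : ℕ) : ℤ) ^ 2),
    Finset.sum_congr rfl (fun χ hχ => by rw [hsA χ hχ] : ∀ χ ∈ A, ((s χ : ℕ) : ℤ) ^ 2 = ((2 : ℕ) : ℤ) ^ 2),
    Finset.sum_congr rfl (fun χ hχ => by rw [hsB χ hχ] : ∀ χ ∈ B, ((s χ : ℕ) : ℤ) ^ 2 = ((13 : ℕ) : ℤ) ^ 2),
    Finset.sum_const, Finset.sum_const, Finset.sum_const, h1.card] at hsumW'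
  simp only [nsmul_eq_mul] at hsumW'
  have k7 := hdd χ1 (hE1W hχ1)
  have k5 := hle χ1 (hE1W hχ1)
  have k6 := hpos χ1 (hE1W hχ1)
  have k4 := h1.dvdE
  rw [hd1] at k4
  have key : s χ1 = 5 ∧ A.card = 2 ∧ B.card = 1 := by
    refine key_eight h1.eps hce k5 k6 k7 k4 ?_ ?_
    · push_cast at hsum1; linarith
    · push_cast at hsumW'; linarith
  obtain ⟨l1, l2, l3⟩ := key
  refine ⟨?_, ?_, ?_, ?_, ?_⟩
  · intro χ
    by_cases m1 : χ = oneIrr G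
    · left; rw [m1]; exact dg_one
    by_cases m2 : χ = St
    · right; left; rw [m2, hSt1]; norm_num
    by_cases m3 : χ ∈ E0
    · right; right; left; rw [h0.dE χ m3, hd0]; norm_num
    have m4 : χ ∈ W := (hmW χ).2 ⟨⟨m1, m2⟩, m3⟩
    by_cases m5 : χ ∈ E1
    · right; right; right; left; rw [hdg χ m4, hs1 χ m5, l1]
    by_cases m6 : c1 χ = 0
    · right; right; right; right; left
      rw [hdg χ m4, hsB χ (by rw [hB, Finset.mem_filter, Finset.mem_sdiff]; exact ⟨⟨m4, m5⟩, not_not.2 m6⟩)]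
    · right; right; right; right; right
      rw [hdg χ m4, hsA χ (by rw [hA, Finset.mem_filter, Finset.mem_sdiff]; exact ⟨⟨m4, m5⟩, m6⟩)]
      norm_num
  · obtain ⟨χ, hχ⟩ := Finset.card_pos.1 (show 0 < E0.card by rw [h0.card]; norm_num)
    exact ⟨χ, by rw [h0.dE χ hχ, hd0]; norm_num⟩
  · exact ⟨χ1, by rw [hdg χ1 (hE1W hχ1), l1]⟩
  · obtain ⟨χ, hχ⟩ := Finset.card_pos.1 (show 0 < B.card by omega)
    exact ⟨χ, by rw [hdg χ (hmB χ hχ).1, hsB χ hχ]⟩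
  · obtain ⟨χ, hχ⟩ := Finset.card_pos.1 (show 0 < A.card by omega)
    exact ⟨χ, by rw [hdg χ (hmA χ hχ).1, hsA χ hχ]; norm_num⟩

end Cfsg.Agent.SuzDeg
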